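import Cfsg.Agent.Lib.GD.ReeChar
import Cfsg.Agent.Lib.FrobeniusCount
import Cfsg.Agent.Lib.ClassSize2

/-!
# Groups of Ree type: the elements of order dividing `q² - q + 1` are real
-/

set_option autoImplicit false
set_option linter.unusedSectionVars false

namespace CfsgLib.JR.RR

open Subgroup Cfsg CfsgLib.FT CfsgLib.FT.BGN CfsgLib.FT.U4 CfsgLib.GW CfsgLib.Blk

section count

variable {G : Type*} [Group G]

/-- The pairs of involutions with product in `S`. -/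
def prs (S : Set G) : Set (G × G) := {p | orderOf p.1 = 2 ∧ orderOf p.2 = 2 ∧ p.1 * p.2 ∈ S}

/-- The conjugates of the elements of `S`. -/
def cls (S : Set G) : Set G := {x | ∃ g, g * x * g⁻¹ ∈ S}

theorem inv_of_prs {a b : G} (ha : orderOf a = 2) (hb : orderOf b = 2) :
    a * (a * b) * a⁻¹ = (a * b)⁻¹ := by
  rw [← mul_assoc, mul_self_of_inv ha, one_mul, mul_inv_rev,
    inv_eq_of_mul_eq_one_right (mul_self_of_inv hb)]

variable [Finite G]

theorem prs_cls {S : Set G} {N : Subgroup G} (hN : ∀ n ∈ N, ∀ x ∈ S, n * x * n⁻¹ ∈ S) :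
    (prs (cls S)).ncard * Nat.card N ≤ Nat.card G * (prs S).ncard := by
  choose! g hg using fun x (hx : x ∈ cls S) => hx
  rw [← Nat.card_coe_set_eq, ← Nat.card_coe_set_eq, ← Nat.card_prod, ← Nat.card_prod]
  refine Nat.card_le_card_of_injective (fun p => ((p.2 : G) * g (p.1.1.1 * p.1.1.2),
    ⟨((p.2 : G) * g (p.1.1.1 * p.1.1.2) * p.1.1.1 * ((p.2 : G) * g (p.1.1.1 * p.1.1.2))⁻¹,
      (p.2 : G) * g (p.1.1.1 * p.1.1.2) * p.1.1.2 * ((p.2 : G) * g (p.1.1.1 * p.1.1.2))⁻¹),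
      by rw [U4.orderOf_conj]; exact p.1.2.1, by rw [U4.orderOf_conj]; exact p.1.2.2.1, ?_⟩)) ?_
  · have := hN _ p.2.2 _ (hg _ p.1.2.2.2)
    convert this using 1
    group
  · rintro ⟨⟨⟨a, b⟩, hp⟩, n, hn⟩ ⟨⟨⟨a', b'⟩, hp'⟩, n', hn'⟩ e
    have e1 : n * g (a * b) = n' * g (a' * b') := congrArg Prod.fst e
    have e2 : n * g (a * b) * a * (n * g (a * b))⁻¹ = n' * g (a' * b') * a' * (n' * g (a' * b'))⁻¹ :=
      congrArg (fun z => z.2.1.1) e
    have e3 : n * g (a * b) * b * (n * g (a * b))⁻¹ = n' * g (a' * b') * b' * (n' * g (a' * b'))⁻¹ :=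
      congrArg (fun z => z.2.1.2) e
    rw [e1] at e2 e3
    obtain rfl : a = a' := by simpa using e2
    obtain rfl : b = b' := by simpa using e3
    obtain rfl : n = n' := mul_right_cancel e1
    rfl

theorem prs_le {S T : Set G} {c : ℕ} (hT : ∀ p ∈ prs S, p.1 * p.2 ∈ T)
    (h : ∀ x ∈ T, Nat.card 𝐂[x] ≤ c) : (prs S).ncard ≤ c * T.ncard := by
  classical
  have := Fintype.ofFinite G
  rw [Set.ncard_eq_toFinset_card', Set.ncard_eq_toFinset_card']
  refine Finset.card_le_mul_card_image_of_maps_to (f := fun p : G × G => p.1 * p.2)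
    (fun p hp => Set.mem_toFinset.2 (hT p (Set.mem_toFinset.1 hp))) c fun x hx => ?_
  rcases Finset.eq_empty_or_nonempty
    (Finset.filter (fun p : G × G => p.1 * p.2 = x) (prs S).toFinset) with e | ⟨p0, hp0⟩
  · rw [e]; exact Nat.zero_le _
  refine le_trans ?_ (h x (Set.mem_toFinset.1 hx))
  rw [← SetLike.coe_sort_coe, Nat.card_coe_set_eq, Set.ncard_eq_toFinset_card']
  simp only [Finset.mem_filter, Set.mem_toFinset] at hp0
  refine Finset.card_le_card_of_injOn (fun p => p0.1 * p.1) (fun p hp => ?_) fun p hp p' hp' e => ?_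
  · simp only [Finset.coe_filter, Set.mem_toFinset, Set.mem_ofPred_eq] at hp
    have h1 := inv_of_prs hp.1.1 hp.1.2.1
    have h2 := inv_of_prs hp0.1.1 hp0.1.2.1
    rw [hp.2] at h1
    rw [hp0.2] at h2
    refine Finset.mem_coe.2 (Set.mem_toFinset.2 (mem_cent1_of_conj_eq ?_))
    calc p0.1 * p.1 * x * (p0.1 * p.1)⁻¹ = p0.1 * (p.1 * x * p.1⁻¹) * p0.1⁻¹ := by group
      _ = (p0.1 * x * p0.1⁻¹)⁻¹ := by rw [h1]; group
      _ = x := by rw [h2, inv_inv]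
  · simp only [Finset.coe_filter, Set.mem_toFinset, Set.mem_ofPred_eq] at hp hp'
    have h1 : p.1 = p'.1 := mul_left_cancel e
    exact Prod.ext h1 (mul_left_cancel (hp.2.trans (h1 ▸ hp'.2.symm)))

theorem prs_single (x : G) : (prs {x}).ncard ≤ {a | orderOf a = 2 ∧ orderOf (a * x) = 2}.ncard := by
  refine Set.ncard_le_ncard_of_injOn Prod.fst (fun p hp => ⟨hp.1, ?_⟩) fun p hp p' hp' e => ?_
  · rw [← show p.1 * p.2 = x from hp.2.2, ← mul_assoc, mul_self_of_inv hp.1, one_mul, hp.2.1]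
  · exact Prod.ext e (mul_left_cancel ((show p.1 * p.2 = x from hp.2.2).trans
      (e ▸ (show p'.1 * p'.2 = x from hp'.2.2).symm)))

theorem prs_le_sq {S J : Set G} (h1 : (1 : G) ∉ S) (h : ∀ p ∈ prs S, p.1 ∈ J ∧ p.2 ∈ J) :
    (prs S).ncard + J.ncard ≤ J.ncard ^ 2 := by
  rw [sq, ← Set.ncard_prod, ← Set.ncard_image_of_injective J
    (f := fun a => (a, a)) fun a b e => congrArg Prod.fst e, ← Set.ncard_union_eq]
  · refine Set.ncard_le_ncard (Set.union_subset h ?_)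
    rintro _ ⟨a, ha, rfl⟩
    exact ⟨ha, ha⟩
  · rw [Set.disjoint_left]
    rintro _ hp ⟨a, ha, rfl⟩
    exact h1 (mul_self_of_inv hp.1 ▸ hp.2.2)

theorem prs_univ : (prs (Set.univ : Set G)).ncard = {a : G | orderOf a = 2}.ncard ^ 2 := by
  rw [sq, ← Set.ncard_prod]
  congr 1
  ext p
  simp [prs]

theorem ncard_sq_ne {H : Subgroup G} {V : Set G} (hV : V ⊆ H) (h : ∀ x ∈ V, x * x = 1) :
    {x | x ∈ H ∧ x * x ≠ 1}.ncard + V.ncard ≤ Nat.card H := by
  rw [← Set.ncard_union_eq (Set.disjoint_left.2 fun x hx hx' => hx.2 (h x hx')),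
    ← SetLike.coe_sort_coe, Nat.card_coe_set_eq]
  exact Set.ncard_le_ncard (Set.union_subset (fun x hx => hx.1) hV)

/-- The number of nontrivial solutions of `x ^ μ = 1`. -/
theorem six_mul_ncard {μ n : ℕ} (hG : Nat.card G = μ * n) (h6 : (μ : ℤ) ∣ n - 6) (hμ : μ % 6 = 1)
    (h : ∀ x : G, x ≠ 1 → x ^ μ = 1 → Nat.card 𝐂[x] ∣ μ) :
    6 * (μ * {x : G | x ≠ 1 ∧ x ^ μ = 1}.ncard) + Nat.card G = Nat.card G * μ := by
  have hμ0 : 0 < μ := by omega
  obtain ⟨k, hk⟩ : n ∣ {x : G | x ≠ 1 ∧ x ^ μ = 1}.ncard := by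
    refine Frob.dvd_ncard_of_dvd_index_centralizer _ (fun g x hx => ⟨by simpa using hx.1, by
      rw [conj_pow, hx.2]; simp⟩) fun x hx => ?_
    obtain ⟨d, hd⟩ := h x hx.1 hx.2
    have h1 := card_mul_index 𝐂[x]
    rw [hG, hd, mul_assoc] at h1
    exact ⟨d, by rw [Nat.eq_of_mul_eq_mul_left Nat.card_pos h1, mul_comm]⟩
  have h1 : {x : G | x ^ μ = 1}.ncard = {x : G | x ≠ 1 ∧ x ^ μ = 1}.ncard + 1 := by
    rw [← Set.ncard_insert_of_notMem (a := 1) (by simp)]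
    congr 1
    ext x
    by_cases hx : x = 1 <;> simp [hx]
  have h2 := H4.frobenius_dvd_ncard_pow_eq_one (G := G) (m := μ) ⟨n, hG⟩
  have h3 : {x : G | x ^ μ = 1}.ncard ≤ Nat.card G := by
    rw [← Set.ncard_univ]; exact Set.ncard_le_ncard (Set.subset_univ _)
  rw [h1, hk] at h2 h3
  have h4 : k < μ := by
    rw [hG, mul_comm μ] at h3
    exact Nat.lt_of_mul_lt_mul_left (a := n) (by omega)
  obtain ⟨j, hj⟩ : μ ∣ 6 * k + 1 := by
    have h5 := Int.natCast_dvd_natCast.2 h2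
    have h7 := Int.dvd_sub h5 (h6.mul_right k)
    rw [← Int.natCast_dvd_natCast]
    convert h7 using 1
    push_cast; ring
  have h5 : j < 6 := by
    by_contra h7
    have : μ * 6 ≤ μ * j := Nat.mul_le_mul_left μ (by omega)
    omega
  have h7 : j = 1 := by interval_cases j <;> omega
  rw [hk, hG]
  rw [h7, mul_one] at hj
  nth_rewrite 4 [← hj]
  ring

end count

theorem defect_zero' {G : Type*} [Group G] [Fintype G] {X : Subgroup G} {χ : G → ℂ} {g : G}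
    {k d m : ℕ} (hk : k.Prime) (hX : Nat.card X = d * m) (hm : m.Coprime k)
    (hχ : IsDirr X χ) {z : ℤ} (hz : χ 1 = d * z) (hg : k ∣ orderOf g) : χ g = 0 := by
  classical
  have key : ∀ χ : Irr X, ∀ z : ℤ, χ 1 = d * z → χ g = 0 := fun χ z hz => by
    by_cases e : g ∈ X
    swap
    · exact CF_zero χ.mem_CF e
    obtain ⟨R, hv⟩ := exists_val hk
    have h1 := sum_idempotent_eq_zero hk hv (idem_mem_CF _) (fun y => ?_)
      (conv_idem_indicator (B := {χ})) X.one_mem (by simp) hg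
    · rw [sum_idem_indicator 1 e, kerB, Finset.sum_singleton, mul_eq_zero, map_eq_zero] at h1
      exact h1.resolve_right χ.irr.one_ne_zero
    have : (d : ℂ) ≠ 0 := by
      have := Nat.card_pos (α := X)
      exact_mod_cast (left_ne_zero_of_mul (hX ▸ this.ne') : d ≠ 0)
    rw [idem_apply, Finset.sum_eq_single χ (fun ψ _ e => by simp [e]) (by simp),
      if_pos (Finset.mem_singleton_self _), one_mul, hz, hX, Nat.cast_mul, mul_div_mul_left _ _ this,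
      ← χ.irr.isChar.inv, div_eq_mul_inv]
    exact val_mul_le (val_mul_le (val_intCast_le _ _) (val_inv_le (val_natCast_eq_one hv hm)))
      (val_le_one_of_isIntegral _ (χ.irr.isChar.isIntegral _))
  rcases hχ with h | h
  · exact key ⟨χ, h⟩ z hz
  · simpa using key ⟨_, h⟩ (-z) (by simp [hz])

variable {G : Type*} [Group G] [Fintype G] {q r s a : ℤ} {p : ℕ} {c : Cfg G} {x y z : G}
  {P : Sylow 3 G}

/-- The factors of `q² - q + 1`. -/
def mu (a : ℤ) : ℕ := (3 * a ^ 2 + 3 * a + 1).natAbs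

theorem mu_cast (a : ℤ) : (mu a : ℤ) = 3 * a ^ 2 + 3 * a + 1 :=
  Int.natAbs_of_nonneg (by nlinarith [sq_nonneg (2 * a + 1)])

theorem mu_mod (a : ℤ) : mu a % 6 = 1 := by
  obtain ⟨k, hk⟩ := Int.even_mul_succ_self a
  have := mu_cast a
  have h1 : (mu a : ℤ) = 6 * k + 1 := by rw [this]; linear_combination 3 * hk
  omega

theorem mu_odd (a : ℤ) : Odd (mu a) := by
  have := mu_mod a
  rw [Nat.odd_iff]; omega

theorem mu_cop (a : ℤ) : (mu a).Coprime (mu (-a)) := by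
  obtain ⟨k, hk⟩ := Int.even_mul_succ_self a
  rw [← Nat.isCoprime_iff_coprime, mu_cast, mu_cast]
  exact ⟨1 - 3 * k * (1 - a), -(3 * k * (1 + a)), by linear_combination 3 * hk⟩

/-- The Ree case. -/
structure RH (q r s a : ℤ) (c : Cfg G) : Prop extends GD q r s 3 c where
  qa : q = -3 * a ^ 2
  hN : ((𝐂[c.t]).index : ℤ) = q ^ 2 * (q ^ 2 + q + 1)
  h7 : 7 ≤ |r|

namespace RH

variable (h : RH q r s a c)
include h

theorem neg : RH q r s (-a) c := ⟨h.toGD, by rw [h.qa]; ring, h.hN, h.h7⟩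

theorem q_neg : q < 0 := by
  have := h.q_ne
  have := h.qa
  have := sq_nonneg a
  omega

theorem castq : (q.natAbs : ℤ) = -q := by have := h.q_neg; omega
theorem castr : (r.natAbs : ℤ) = -r := by have := h.q_neg; have := h.hq; omega
theorem casts : (s.natAbs : ℤ) = -s := by
  have := h.q_neg; have := h.hq; have := h.hs; have := h.rne; omega

theorem mu_mul : ((mu a * mu (-a) : ℕ) : ℤ) = q ^ 2 + q + 1 := by
  rw [Nat.cast_mul, mu_cast, mu_cast, h.qa]; ring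

theorem idx : (𝐂[c.t]).index = q.natAbs ^ 2 * (mu a * mu (-a)) := by
  zify
  rw [h.hN, ← h.mu_mul, sq_abs]; push_cast; ring

theorem card_G : Nat.card G = 8 * q.natAbs ^ 3 * r.natAbs * s.natAbs * (mu a * mu (-a)) := by
  rw [h.card_eq, h.idx]; ring

theorem cop : (8 * q.natAbs ^ 3 * r.natAbs * s.natAbs).Coprime (mu a * mu (-a)) := by
  have hq := h.hq
  have hs := h.hs
  have hqa := h.qa
  refine Nat.Coprime.mul_left (Nat.Coprime.mul_left (Nat.Coprime.mul_left ?_ ?_) ?_) ?_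
  · exact Nat.Coprime.pow_left 3 (Nat.coprime_two_left.2 ((mu_odd _).mul (mu_odd _)))
  · refine Nat.Coprime.pow_left 3 ?_
    rw [← Nat.isCoprime_iff_coprime, h.mu_mul, h.castq]
    exact ⟨q + 1, 1, by ring⟩
  · rw [← Nat.isCoprime_iff_coprime, h.mu_mul, h.castr]
    exact ⟨4 - a ^ 2 * (16 * r + 12), -a ^ 2, by
      rw [hq] at hqa ⊢; linear_combination (-1 : ℤ) * hqa⟩
  · rw [← Nat.isCoprime_iff_coprime, h.mu_mul, h.casts]
    exact ⟨4 * s - 2, 1, by rw [hq, hs]; ring⟩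

theorem cube : q.natAbs ^ 3 + 1 = 4 * r.natAbs * (mu a * mu (-a)) := by
  zify
  rw [← Nat.cast_mul, h.mu_mul, abs_of_neg h.q_neg, ← Int.natCast_natAbs, h.castr, h.hq]
  ring

theorem card_G' : Nat.card G = q.natAbs ^ 3 * (2 * s.natAbs) * (q.natAbs ^ 3 + 1) := by
  rw [h.card_G, h.cube]; ring

theorem card_P (P : Sylow 3 G) : Nat.card P = q.natAbs ^ 3 := by
  obtain ⟨f, hf⟩ := h.qp
  have k1 := card_mul_index (P : Subgroup G)
  obtain ⟨n, hn⟩ := IsPGroup.iff_card.1 P.isPGroup'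
  rw [h.card_G', mul_assoc] at k1
  refine Nat.dvd_antisymm (Nat.Coprime.dvd_of_dvd_mul_right ?_ ⟨_, k1.symm⟩)
    (Nat.Coprime.dvd_of_dvd_mul_right ?_ ⟨_, k1⟩)
  · rw [hn]
    refine (Nat.Coprime.coprime_dvd_left h.p_dvd (((Nat.coprime_two_right.2 h.odd_q').mul_right
      h.cop_qs).mul_right ?_)).pow_left n
    rw [pow_succ, Nat.coprime_mul_right_add_right]; exact Nat.coprime_one_right _
  · rw [hf, ← pow_mul]
    exact (h.pp.coprime_iff_not_dvd.2 P.not_dvd_index).pow_left _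

theorem mem_norm_P {g : G} (hx : x ∈ P) (h1 : x ≠ 1) (e : g * x * g⁻¹ ∈ P) :
    g ∈ 𝐍((P : Subgroup G)) := by
  refine Sylow.smul_eq_iff_mem_normalizer.1 ?_
  by_contra e'
  have : g * x * g⁻¹ ∈ (⊥ : Subgroup G) :=
    h.sylow_ti h.q_neg h.hN e' ▸ ⟨conj_mem_conj_iff.2 hx, e⟩
  exact h1 (by simpa using this)

theorem exists_B : ∃ P : Sylow 3 G, c.Q ≤ P ∧ c.D ≤ 𝐍((P : Subgroup G)) ∧
    Nat.card 𝐍((P : Subgroup G)) = q.natAbs ^ 3 * (2 * s.natAbs) := by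
  obtain ⟨P, h1, hQ, hD⟩ := h.exists_P h.q_neg h.hN
  obtain ⟨P, rfl⟩ := IsSylowIn.top_iff.1 h1
  refine ⟨P, hQ, hD, ?_⟩
  have h4 := h.card_P P
  have k1 := card_dvd_of_le (sup_le le_normalizer hD)
  rw [sup_comm, card_sup_of_disjoint hD (disjoint_of_coprime_natCard (by
    rw [h4, h.card_D]
    exact (((Nat.coprime_two_right.2 h.odd_q').mul_right h.cop_qs).pow_left 3).symm)).eq_bot, h4,
    h.card_D, mul_comm] at k1
  have k2 := card_mul_index 𝐍((P : Subgroup G))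
  obtain ⟨P', hP'⟩ : ∃ P' : Sylow 3 G, P' ≠ P := by
    obtain ⟨P0, -, -, h6, h2, -⟩ := h.exists_P0 h.q_neg h.hN
    have h7 : c.u • P0 ≠ P0 := fun e => h6 (by rw [e, inf_idem] at h2; exact h2.le.trans bot_le)
    by_cases e : P0 = P
    · exact ⟨_, e ▸ h7⟩
    · exact ⟨_, e⟩
  have k3 : Nat.card P + 1 ≤ Nat.card (Sylow 3 G) := by
    classical
    have := Nat.card_le_card_of_injective
      (f := fun x : (P : Subgroup G) => (⟨(x : G) • P', fun e => hP' (by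
        rw [(smul_eq_iff_eq_inv_smul _).1 e, Sylow.smul_eq_iff_mem_normalizer]
        exact le_normalizer (inv_mem x.2))⟩ : {Q : Sylow 3 G // Q ≠ P})) (fun x y e => by
      obtain ⟨n, hn⟩ := IsPGroup.iff_orderOf.1 P.isPGroup' (y⁻¹ * x)
      have k1 := (H4.sylow_smul_eq_iff_mem ((orderOf_coe _).trans hn) P').1 (by
        rw [Subgroup.coe_mul, mul_smul, Subtype.mk.inj e, Subgroup.coe_inv, inv_smul_smul])
      exact (inv_mul_eq_one.1 (Subtype.ext (mem_bot.1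
        (h.sylow_ti h.q_neg h.hN hP' ▸ ⟨k1, (y⁻¹ * x).2⟩)))).symm)
    have inst := Fintype.ofFinite (Sylow 3 G)
    have h5 : 0 < Nat.card (Sylow 3 G) := Nat.card_pos
    rw [Nat.card_eq_fintype_card (α := {Q : Sylow 3 G // Q ≠ P}), Fintype.card_subtype_compl,
      Fintype.card_subtype_eq, ← Nat.card_eq_fintype_card] at this
    omega
  rw [P.card_eq_index_normalizer, h4] at k3
  refine le_antisymm (Nat.le_of_mul_le_mul_right (c := q.natAbs ^ 3 + 1) ?_ (Nat.succ_pos _))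
    (Nat.le_of_dvd Nat.card_pos k1)
  rw [← h.card_G', ← k2]
  exact Nat.mul_le_mul_left _ k3

theorem exists_conj_R (hk : (orderOf x).Prime) (hd : orderOf x ∣ r.natAbs) :
    ∃ g, g * x * g⁻¹ ∈ c.R := by
  obtain ⟨g, -, e⟩ := exists_conj_mem_of_hall hk (le_top (a := c.R)) (fun e => by
    rw [← relIndex_mul_relIndex _ _ _ (h.RL.trans h.L_le) le_top,
      ← relIndex_mul_relIndex _ _ _ h.RL h.L_le, h.idxL, relIndex_top_right, h.idx, hk.dvd_mul,
      hk.dvd_mul, hk.dvd_mul] at e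
    rcases e with (e | e) | e | e
    · exact h.hall_R hk hd e
    · rw [(Nat.prime_dvd_prime_iff_eq hk Nat.prime_two).1 e] at hd
      exact Nat.not_even_iff_odd.2 h.odd_r' (even_iff_two_dvd.2 hd)
    · exact hk.one_lt.ne' (Nat.eq_one_of_dvd_coprimes h.cop_qr (hk.dvd_of_dvd_pow e) hd)
    · exact hk.one_lt.ne' (Nat.eq_one_of_dvd_coprimes h.cop
        ((hd.mul_left _).mul_right _) e)) (isPGroup_zpowers rfl) le_top
  exact ⟨g, e (conj_mem_conj_iff.2 (mem_zpowers x))⟩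

theorem exists_conj_T (hk : (orderOf x).Prime) (hd : orderOf x ∣ s.natAbs) :
    ∃ g, g * x * g⁻¹ ∈ c.T := by
  obtain ⟨g, -, e⟩ := exists_conj_mem_of_hall hk (le_top (a := c.T))
    (h.hall_T' h.hN hk hd le_top) (isPGroup_zpowers rfl) le_top
  exact ⟨g, e (conj_mem_conj_iff.2 (mem_zpowers x))⟩

theorem card_cent_dvd (hk : (orderOf x).Prime)
    (hd : orderOf x ∣ 8 * q.natAbs ^ 3 * r.natAbs * s.natAbs) :
    Nat.card 𝐂[x] ∣ 8 * q.natAbs ^ 3 * r.natAbs * s.natAbs := by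
  have key : ∀ g : G, Nat.card 𝐂[g * x * g⁻¹] = Nat.card 𝐂[x] := fun g => by
    rw [cent1_conj, card_map_conj]
  have h1 : ∀ g : G, g * x * g⁻¹ ≠ 1 := fun g e => by
    rw [← U4.orderOf_conj g, e, orderOf_one] at hk
    exact Nat.not_prime_one hk
  rw [hk.dvd_mul, hk.dvd_mul, hk.dvd_mul] at hd
  rcases hd with ((e | e) | e) | e
  · obtain ⟨g, rfl⟩ := h.conj_t ((Nat.prime_dvd_prime_iff_eq hk Nat.prime_two).1
      (hk.dvd_of_dvd_pow (n := 3) e))
    rw [cent1_conj, card_map_conj, h.card_ct]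
    exact ⟨q.natAbs ^ 2, by ring⟩
  · obtain ⟨P, -, -, hP⟩ := h.exists_B
    obtain ⟨P', hP'⟩ := (isPGroup_zpowers (h.eq_p hk (hk.dvd_of_dvd_pow e))).exists_le_sylow
    obtain ⟨g, rfl⟩ := MulAction.exists_smul_eq G P' P
    have h2 : g * x * g⁻¹ ∈ g • P' := conj_mem_conj_iff.2 (hP' (mem_zpowers x))
    rw [← key g]
    refine (card_dvd_of_le fun z hz => h.mem_norm_P h2 (h1 g)
      (by rwa [conj_eq_of_mem_cent1 hz])).trans ?_
    rw [hP]
    exact ⟨4 * r.natAbs, by ring⟩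
  · obtain ⟨g, hg⟩ := h.exists_conj_R hk e
    rw [← key g, h.cent_R hg (h1 g), h.card_W]
    exact ⟨2 * q.natAbs ^ 3 * s.natAbs, by ring⟩
  · obtain ⟨g, hg⟩ := h.exists_conj_T hk e
    rw [← key g, h.cent_T h.q_neg h.hN hg (h1 g), h.card_D]
    exact ⟨4 * q.natAbs ^ 3 * r.natAbs, by ring⟩

theorem sep {k l : ℕ} (hk : k.Prime) (hl : l.Prime) (h1 : k ∣ mu a) (h2 : l ∣ mu (-a))
    (ho : Odd (orderOf x)) (h3 : k ∣ orderOf x) (h4 : l ∣ orderOf x) : False := by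
  obtain ⟨χ, φ, ψ, u, v, d1, d2, d3, e1, e2, e3, f1, f2, f3⟩ := ree_chars h.toGD h.h7
  have hG := h.card_G
  rw [← card_top] at hG
  have c1 := h.cop
  have c2 := mu_cop a
  have k1 : χ x = 0 := defect_zero' (z := -1) hk (hG.trans (mul_comm _ _))
    (c1.coprime_dvd_right (h1.mul_right _)) d1 (by
      rw [e1, ← h.mu_mul]; push_cast; ring) h3
  have k2 : ∀ {θ : G → ℂ}, IsDirr ⊤ θ → θ 1 = (s * a * mu a : ℤ) → θ x = 0 := fun hθ e =>
    defect_zero' (d := mu a) (z := s * a) hk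
      (m := 8 * q.natAbs ^ 3 * r.natAbs * s.natAbs * mu (-a)) (hG.trans (by ring))
      ((c1.coprime_dvd_right (h1.mul_right _)).mul_left (c2.symm.coprime_dvd_right h1)) hθ
      (by rw [e]; push_cast; ring) h3
  have k3 : ∀ {θ : G → ℂ}, IsDirr ⊤ θ → θ 1 = (-(s * a) * mu (-a) : ℤ) → θ x = 0 := fun hθ e =>
    defect_zero' (d := mu (-a)) (z := -(s * a)) hl
      (m := 8 * q.natAbs ^ 3 * r.natAbs * s.natAbs * mu a) (hG.trans (by ring))
      ((c1.coprime_dvd_right (h2.mul_left _)).mul_left (c2.coprime_dvd_right h2)) hθ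
      (by rw [e]; push_cast; ring) h4
  have hs : 2 * s = 1 - 3 * a ^ 2 := by have := h.hq; have := h.hs; have := h.qa; omega
  have g1 : u + v = s * a * mu a + -(s * a) * mu (-a) := by
    rw [f1, mu_cast, mu_cast, h.qa]; linear_combination (-3 * a ^ 2) * hs
  have g2 : u * v = s * a * mu a * (-(s * a) * mu (-a)) := by
    refine mul_left_cancel₀ (three_ne_zero (α := ℤ)) ?_
    rw [f2, mu_cast, mu_cast, h.qa]; ring
  have g3 : (u - s * a * mu a) * (u - -(s * a) * mu (-a)) = 0 := by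
    linear_combination u * g1 - g2
  have := f3 x ho
  rcases mul_eq_zero.1 g3 with e | e
  · rw [k1, k2 d2 (by rw [e2, sub_eq_zero.1 e]), k3 d3 (by rw [e3]; congr 1; omega)] at this
    simp at this
  · rw [k1, k3 d2 (by rw [e2, sub_eq_zero.1 e]), k2 d3 (by rw [e3]; congr 1; omega)] at this
    simp at this

theorem cent_dvd {k : ℕ} (hk : k.Prime) (h1 : k ∣ mu a) (h3 : k ∣ orderOf x) :
    Nat.card 𝐂[x] ∣ mu a := by
  obtain ⟨y, hy, rfl⟩ := exists_prime_pow h3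
  refine (card_dvd_of_le (cent1_le_cent1 hy)).trans ?_
  refine Nat.Coprime.dvd_of_dvd_mul_left (m := 8 * q.natAbs ^ 3 * r.natAbs * s.natAbs * mu (-a))
    (Nat.coprime_of_dvd fun l hl k1 k2 => ?_) ((card_subgroup_dvd_card _).trans ⟨1, by
      rw [h.card_G]; ring⟩)
  have := Fact.mk hl
  obtain ⟨⟨z, hz⟩, k3⟩ := exists_prime_orderOf_dvd_card' l k1
  obtain rfl : orderOf z = l := (orderOf_coe (⟨z, hz⟩ : 𝐂[y])).trans k3
  rcases hl.dvd_mul.1 k2 with e | e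
  · exact hk.one_lt.ne' (Nat.eq_one_of_dvd_coprimes h.cop ((orderOf_dvd_card_of_mem
      (mem_cent1_comm.1 hz)).trans (h.card_cent_dvd hl e)) (h1.mul_right _))
  · have k4 : orderOf (z * y) = orderOf z * orderOf y :=
      Commute.orderOf_mul_eq_mul_orderOf_of_coprime (mem_cent1.1 hz)
        (((mu_cop a).symm.coprime_dvd_left e).coprime_dvd_right h1)
    refine h.sep (x := z * y) hk hl h1 e ?_ (k4 ▸ dvd_mul_left _ _) (k4 ▸ dvd_mul_right _ _)
    rw [k4]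
    exact ((mu_odd _).of_dvd_nat e).mul ((mu_odd _).of_dvd_nat h1)

theorem cent_dvd' (h1 : x ≠ 1) (h2 : x ^ mu a = 1) : Nat.card 𝐂[x] ∣ mu a := by
  obtain ⟨k, hk, hd⟩ := exists_prime_dvd_orderOf h1
  exact h.cent_dvd hk (hd.trans (orderOf_dvd_of_pow_eq_one h2)) hd

theorem count : 6 * (mu a * {x : G | x ≠ 1 ∧ x ^ mu a = 1}.ncard) + Nat.card G =
    Nat.card G * mu a := by
  refine six_mul_ncard (n := 8 * q.natAbs ^ 3 * r.natAbs * s.natAbs * mu (-a))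
    (by rw [h.card_G]; ring) ?_ (mu_mod a) fun x => h.cent_dvd'
  have h1 : ((8 * q.natAbs ^ 3 * r.natAbs * s.natAbs * mu (-a) : ℕ) : ℤ) =
      (3 * a ^ 2) ^ 3 * (3 * a ^ 2 + 1) * (3 * a ^ 2 - 1) * (3 * a ^ 2 - 3 * a + 1) := by
    have h2 : 4 * r = -3 * a ^ 2 - 1 := by have := h.hq; have := h.qa; omega
    have h3 : 2 * s = 1 - 3 * a ^ 2 := by have := h.hq; have := h.hs; have := h.qa; omega
    rw [Nat.cast_mul, Nat.cast_mul, Nat.cast_mul, Nat.cast_mul, Nat.cast_pow, h.castq, h.castr,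
      h.casts, mu_cast, h.qa, show ((8 : ℕ) : ℤ) * (-(-3 * a ^ 2)) ^ 3 * -r * -s =
        (3 * a ^ 2) ^ 3 * (4 * r) * (2 * s) by push_cast; ring, h2, h3]
    ring
  rw [h1, mu_cast]
  exact ⟨-6 + 18 * a - 36 * a ^ 2 + 54 * a ^ 3 - 54 * a ^ 4 + 135 * a ^ 6 - 324 * a ^ 7 +
    486 * a ^ 8 - 486 * a ^ 9 + 243 * a ^ 10, by ring⟩

theorem ncard_inv : {x : G | orderOf x = 2}.ncard = q.natAbs ^ 2 * (mu a * mu (-a)) := by
  rw [← h.idx, ← relIndex_top_right, ← Frob.ncard_conj_subgroup]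
  congr 1
  ext x
  refine ⟨fun hx => ?_, ?_⟩
  · obtain ⟨g, hg⟩ := h.conj_t hx
    exact ⟨g, mem_top g, hg⟩
  · rintro ⟨g, -, rfl⟩
    exact (U4.orderOf_conj g _).trans h.ot

theorem b1 : (prs {(1 : G)}).ncard ≤ q.natAbs ^ 2 * (mu a * mu (-a)) := by
  rw [← h.ncard_inv]
  exact (prs_single 1).trans (Set.ncard_le_ncard fun x hx => hx.1)

theorem b2 : (prs (cls {c.t})).ncard ≤
    q.natAbs ^ 2 * (mu a * mu (-a)) * (2 * (q.natAbs * s.natAbs)) := by
  have h1 := prs_cls (S := {c.t}) (N := 𝐂[c.t]) (by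
    rintro n hn _ rfl; exact conj_eq_of_mem_cent1 hn)
  have h2 : {x | x ∈ c.L ∧ orderOf x = 2}.ncard ≤ q.natAbs * s.natAbs := by
    rw [← h.idx_cu, inf_comm, inf_relIndex_right, ← Frob.ncard_conj_subgroup]
    exact Set.ncard_le_ncard fun x hx => h.one _ h.uL _ hx.1 h.ou hx.2
  have h3 : (prs {c.t}).ncard ≤ 2 * (q.natAbs * s.natAbs) := by
    refine (prs_single _).trans ((Set.ncard_le_ncard (t := {x | x ∈ c.L ∧ orderOf x = 2} ∪
      (fun x => x * c.t) '' {x | x ∈ c.L ∧ orderOf x = 2}) fun x hx => ?_).trans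
      ((Set.ncard_union_le _ _).trans ?_))
    · have k1 : x ∈ 𝐂[c.t] := by
        refine mem_cent1.2 ?_
        rw [← inv_eq_of_mul_eq_one_right (mul_self_of_inv hx.2), mul_inv_rev, h.four_tu.ti,
          inv_eq_of_mul_eq_one_right (mul_self_of_inv hx.1)]
      rcases h.mem_ct.1 k1 with e | e
      · exact Or.inl ⟨e, hx.1⟩
      · exact Or.inr ⟨x * c.t, ⟨mem_cent1.1 k1 ▸ e, hx.2⟩, by
          simp only; rw [mul_assoc, h.tt, mul_one]⟩
    · have := Set.ncard_image_le (f := fun x => x * c.t) (s := {x | x ∈ c.L ∧ orderOf x = 2})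
      omega
  rw [← index_mul_card 𝐂[c.t], h.idx] at h1
  refine Nat.le_of_mul_le_mul_right (h1.trans ?_) (Nat.card_pos (α := 𝐂[c.t]))
  rw [mul_right_comm]
  exact Nat.mul_le_mul_right _ (Nat.mul_le_mul_left _ h3)

theorem b3 : 2 * (prs (cls {x | x ∈ c.D ∧ x * x ≠ 1})).ncard + 2 * Nat.card G ≤
    Nat.card G * (2 * s.natAbs) := by
  have uD : c.u ∈ 𝐍(c.D) := mem_norm_sup (mem_norm_of fun x hx => h.uT x hx ▸ inv_mem hx)
    (mem_norm_of_comm fun x hx => mem_cent1.1 (zpowers_le.2 h.four_tu.symm.s_cent hx))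
  have uD' : c.u ∉ c.D := fun e => h.four_tu.ne (h.eq_t e h.ou).symm
  have h1 := prs_cls (S := {x | x ∈ c.D ∧ x * x ≠ 1}) (N := c.D ⊔ zpowers c.u) fun n hn x hx =>
    ⟨norm_mem (sup_le le_normalizer (zpowers_le.2 uD) hn) hx.1, fun e => hx.2 (by
      rw [conj_mul] at e; simpa using e)⟩
  have h2 := prs_le (S := {x | x ∈ c.D ∧ x * x ≠ 1}) (c := 2 * s.natAbs) (fun p hp => hp.2.2)
    fun x hx => by
      have k1 : x * x ∈ c.T := by
        rcases h.mem_D.1 hx.1 with e | e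
        · exact mul_mem e e
        · have := mul_mem e e
          rwa [mul_assoc, ← mul_assoc x, mem_cent1.1 (h.D_le_ct hx.1), mul_assoc, ← mul_assoc,
            h.tt, one_mul] at this
      rw [← h.card_D, ← h.cent_T h.q_neg h.hN k1 hx.2]
      exact card_le_of_le (cent1_le_cent1 (mul_mem (mem_zpowers x) (mem_zpowers x)))
  have h3 := ncard_sq_ne (H := c.D) (V := zpowers c.t)
    (show zpowers c.t ≤ c.D from le_sup_right) fun x hx => by
      rcases (mem_zpowers_inv h.ot).1 hx with rfl | rfl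
      · exact mul_one 1
      · exact h.tt
  rw [← Nat.card_coe_set_eq (zpowers c.t : Set G), SetLike.coe_sort_coe, Nat.card_zpowers, h.ot,
    h.card_D] at h3
  rw [card_sup_inv h.uu uD uD', h.card_D] at h1
  have hs := h.three_le
  refine Nat.le_of_mul_le_mul_right (c := 2 * s.natAbs) ?_ (by omega)
  have h4 := Nat.mul_le_mul_left (Nat.card G) h2
  have h5 := Nat.mul_le_mul_left (Nat.card G * (2 * s.natAbs)) h3
  nlinarith

theorem b4 : 6 * (prs (cls {x | x ∈ c.W ∧ x * x ≠ 1})).ncard + 4 * Nat.card G ≤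
    Nat.card G * (4 * r.natAbs) := by
  obtain ⟨w, j, hw⟩ := h.exists_wd
  have h1 := prs_cls (S := {x | x ∈ c.W ∧ x * x ≠ 1}) (N := 𝐍(V c.t c.u)) fun n hn x hx =>
    ⟨norm_mem (h.nv_W hn) hx.1, fun e => hx.2 (by rw [conj_mul] at e; simpa using e)⟩
  have h2 := prs_le (S := {x | x ∈ c.W ∧ x * x ≠ 1}) (c := 4 * r.natAbs) (fun p hp => hp.2.2)
    fun x hx => by
      rw [← h.card_W, ← h.cent_R (h.sq_W hx.1) hx.2]
      exact card_le_of_le (cent1_le_cent1 (mul_mem (mem_zpowers x) (mem_zpowers x)))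
  have h3 := ncard_sq_ne (H := c.W) (V := V c.t c.u) h.V_le_W fun x hx =>
    h.four_tu.mul_self_of_mem hx
  rw [← Nat.card_coe_set_eq (V c.t c.u : Set G), SetLike.coe_sort_coe, h.four_tu.card_V,
    h.card_W] at h3
  rw [← card_mul_relIndex (U4.cent_le_norm _), h.idx_cv hw, ← card_mul_relIndex h.W_le_cv, h.idxW,
    h.card_W] at h1
  have hr : 0 < r.natAbs := Int.natAbs_pos.2 h.r_ne
  refine Nat.le_of_mul_le_mul_right (c := 4 * r.natAbs) ?_ (by omega)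
  have h4 := Nat.mul_le_mul_left (Nat.card G) h2
  have h5 := Nat.mul_le_mul_left (Nat.card G * (4 * r.natAbs)) h3
  nlinarith

theorem b5 : ∃ P : Sylow 3 G, (prs (cls {x | x ∈ P ∧ x ≠ 1})).ncard +
    (q.natAbs ^ 3 + 1) * q.natAbs ^ 2 ≤ (q.natAbs ^ 3 + 1) * q.natAbs ^ 4 := by
  obtain ⟨P, hQ, hD, hB⟩ := h.exists_B
  refine ⟨P, ?_⟩
  have ht : c.t ∈ 𝐍((P : Subgroup G)) := hD (mem_sup_right (mem_zpowers _))
  have h1 := prs_cls (S := {x | x ∈ P ∧ x ≠ 1}) (N := 𝐍((P : Subgroup G))) fun n hn x hx =>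
    ⟨norm_mem hn hx.1, by simpa using hx.2⟩
  have h2 := prs_le_sq (S := {x | x ∈ P ∧ x ≠ 1})
    (J := {x | x ∈ 𝐍((P : Subgroup G)) ∧ orderOf x = 2}) (by simp) fun p hp => by
      have k1 := h.mem_norm_P hp.2.2.1 hp.2.2.2 (inv_of_prs hp.1 hp.2.1 ▸ P.1.inv_mem hp.2.2.1)
      exact ⟨⟨k1, hp.1⟩, (mul_mem_cancel_left k1).1 (le_normalizer hp.2.2.1), hp.2.1⟩
  have h3 : {x | x ∈ 𝐍((P : Subgroup G)) ∧ orderOf x = 2}.ncard ≤ q.natAbs ^ 2 := by
    have k1 : {x | x ∈ 𝐍((P : Subgroup G)) ∧ orderOf x = 2}.ncard ≤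
        (𝐂[c.t]).relIndex 𝐍((P : Subgroup G)) := by
      rw [← Frob.ncard_conj_subgroup]
      refine Set.ncard_le_ncard fun x hx => ?_
      have k2 := (h.mem_Od ht (h.odd_norm h.q_neg P.isPGroup' hQ) hx.1).resolve_left
        (notMem_Od hx.2)
      obtain ⟨m, hm⟩ := odd_of_mem_Od k2
      have k3 := inv_of_prs h.ot hx.2
      refine ⟨((c.t * x) ^ (m + 1))⁻¹, inv_mem (pow_mem (mul_mem ht hx.1) _), ?_⟩
      have k4 : c.t * (c.t * x) ^ (m + 1) * c.t⁻¹ = ((c.t * x) ^ (m + 1))⁻¹ := by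
        rw [← conj_pow, k3, inv_pow]
      have k5 : (c.t * x) ^ (m + 1) * (c.t * x) ^ (m + 1) = c.t * x := by
        rw [← pow_add, show m + 1 + (m + 1) = orderOf (c.t * x) + 1 by omega, pow_succ,
          pow_orderOf_eq_one, one_mul]
      rw [inv_inv]
      nth_rewrite 1 [← k4]
      rw [inv_mul_cancel_right, mul_assoc, k5, ← mul_assoc, h.tt, one_mul]
    have k2 : q.natAbs * (2 * s.natAbs) ≤ Nat.card ↥(𝐂[c.t] ⊓ 𝐍((P : Subgroup G))) := by
      have k3 : c.D ≤ 𝐍(c.Q) := sup_le (h.TQ h.q_neg) (zpowers_le.2 (h.t_norm h.QL))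
      rw [← h.cardQ, ← h.card_D, mul_comm, ← card_sup_of_disjoint k3 (disjoint_of_coprime_natCard
        (by rw [h.cardQ, h.card_D]
            exact ((Nat.coprime_two_right.2 h.odd_q').mul_right h.cop_qs).symm)).eq_bot]
      exact card_le_of_le (sup_le (le_inf h.D_le_ct hD)
        (le_inf (h.QL.trans h.L_le) (hQ.trans le_normalizer)))
    have k3 := card_inf_mul_relIndex 𝐂[c.t] 𝐍((P : Subgroup G))
    rw [hB] at k3
    have hs := h.three_le
    have hq := h.five_le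
    refine Nat.le_of_mul_le_mul_left (c := q.natAbs * (2 * s.natAbs)) ?_ (by positivity)
    refine (Nat.mul_le_mul k2 k1).trans (k3.le.trans (le_of_eq (by ring)))
  rw [hB, h.card_G'] at h1
  have hs := h.three_le
  have hq := h.five_le
  have h4 : (prs (cls {x | x ∈ P ∧ x ≠ 1})).ncard ≤
      (q.natAbs ^ 3 + 1) * (prs {x | x ∈ P ∧ x ≠ 1}).ncard :=
    Nat.le_of_mul_le_mul_right (h1.trans (le_of_eq (by ring))) (by positivity)
  have h5 : (prs {x | x ∈ P ∧ x ≠ 1}).ncard + q.natAbs ^ 2 ≤ q.natAbs ^ 4 := by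
    generalize {x | x ∈ 𝐍((P : Subgroup G)) ∧ orderOf x = 2}.ncard = J at h2 h3
    obtain ⟨d, hd⟩ := Nat.exists_eq_add_of_le h3
    rw [show q.natAbs ^ 4 = (q.natAbs ^ 2) ^ 2 by ring, hd]
    have : d ≤ d ^ 2 := Nat.le_self_pow two_ne_zero d
    nlinarith
  have h6 := Nat.mul_le_mul_left (q.natAbs ^ 3 + 1) h5
  rw [mul_add] at h6
  omega

theorem cover (P : Sylow 3 G) : prs (Set.univ : Set G) ⊆ prs {1} ∪ prs (cls {c.t}) ∪
    prs (cls {x | x ∈ c.D ∧ x * x ≠ 1}) ∪ prs (cls {x | x ∈ c.W ∧ x * x ≠ 1}) ∪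
    prs (cls {x | x ∈ P ∧ x ≠ 1}) ∪ prs {x | x ≠ 1 ∧ x ^ mu a = 1} ∪
    prs {x | x ≠ 1 ∧ x ^ mu (-a) = 1} := by
  rintro ⟨u, v⟩ ⟨hu, hv, -⟩
  simp only [prs, Set.mem_union, Set.mem_ofPred_eq, hu, hv, true_and]
  have hi := inv_of_prs hu hv
  generalize u * v = x at hi ⊢
  by_contra hn
  simp only [not_or] at hn
  obtain ⟨⟨⟨⟨⟨⟨n1, n2⟩, n3⟩, n4⟩, n5⟩, n6⟩, n7⟩ := hn
  have key : ∀ (g y : G) (H : Subgroup G), y ∈ zpowers x → Odd (orderOf y) → y ≠ 1 →
      𝐂[g * y * g⁻¹] = H → g * x * g⁻¹ ∈ {x | x ∈ H ∧ x * x ≠ 1} := fun g y H hy ho h1 e =>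
    ⟨e ▸ conj_cent g (comm_of_mem_zpowers hy), fun e' => h1 (eq_one_of_odd_of_mul_self ho (by
      obtain ⟨i, rfl⟩ := hy
      have : x * x = 1 := by rw [conj_mul] at e'; simpa using e'
      simp only
      rw [← (Commute.refl x).mul_zpow, this, one_zpow]))⟩
  have h1 : ∀ k : ℕ, k.Prime → k ∣ orderOf x → k = 2 ∨ k = 3 := by
    intro k hk hd
    have h2 := hd.trans (orderOf_dvd_natCard x)
    obtain ⟨y, hy, rfl⟩ := exists_prime_pow hd
    have y1 : y ≠ 1 := by rintro rfl; exact Nat.not_prime_one (orderOf_one (G := G) ▸ hk)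
    rw [h.card_G, hk.dvd_mul, hk.dvd_mul, hk.dvd_mul, hk.dvd_mul, hk.dvd_mul] at h2
    rcases h2 with (((e | e) | e) | e) | e | e
    · exact Or.inl ((Nat.prime_dvd_prime_iff_eq hk Nat.prime_two).1 (hk.dvd_of_dvd_pow (n := 3) e))
    · exact Or.inr (h.eq_p hk (hk.dvd_of_dvd_pow e))
    · obtain ⟨g, hg⟩ := h.exists_conj_R hk e
      exact (n4 ⟨g, key g y _ hy (h.odd_r'.of_dvd_nat e) y1
        (h.cent_R hg (by simpa using y1))⟩).elim
    · obtain ⟨g, hg⟩ := h.exists_conj_T hk e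
      exact (n3 ⟨g, key g y _ hy (h.odd_s'.of_dvd_nat e) y1
        (h.cent_T h.q_neg h.hN hg (by simpa using y1))⟩).elim
    · exact (n6 ⟨n1, orderOf_dvd_iff_pow_eq_one.1 ((orderOf_dvd_card_of_mem
        (self_mem_cent1 x)).trans (h.cent_dvd hk e hd))⟩).elim
    · exact (n7 ⟨n1, orderOf_dvd_iff_pow_eq_one.1 ((orderOf_dvd_card_of_mem
        (self_mem_cent1 x)).trans (h.neg.cent_dvd hk e hd))⟩).elim
  by_cases h2 : 2 ∣ orderOf x
  · by_cases h3 : 3 ∣ orderOf x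
    · obtain ⟨b, hb, ob⟩ := exists_inv_pow h2
      obtain ⟨z, hz, oz⟩ := exists_prime_pow h3
      refine h.nonreal h.q_neg ob (x := z) (b := u) (cent1_le_cent1 hb (zpowers_le_cent1 x hz)) oz
        (mem_cent1_of_conj_eq ?_) (inverts_zpowers hi z hz)
      rw [inverts_zpowers hi b hb, inv_eq_of_mul_eq_one_right (mul_self_of_inv ob)]
    · have h4 : IsPGroup 2 (zpowers x) := isPGroup_of_forall_prime_dvd fun k hk hd =>
        (h1 k hk (Nat.card_zpowers x ▸ hd)).resolve_right fun e => h3 (Nat.card_zpowers x ▸ e ▸ hd)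
      obtain ⟨g, hg⟩ := h.conj_t (inv_of_mul_self (h.two_sq h4 (mem_zpowers x)) n1)
      exact n2 ⟨g⁻¹, by rw [← hg]; simp [mul_assoc]⟩
  · have h4 : IsPGroup 3 (zpowers x) := isPGroup_of_forall_prime_dvd fun k hk hd =>
      (h1 k hk (Nat.card_zpowers x ▸ hd)).resolve_left fun e => h2 (Nat.card_zpowers x ▸ e ▸ hd)
    obtain ⟨P', hP'⟩ := h4.exists_le_sylow
    obtain ⟨g, rfl⟩ := MulAction.exists_smul_eq G P' P
    exact n5 ⟨g, conj_mem_conj_iff.2 (hP' (mem_zpowers x)), by simpa using n1⟩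

theorem real (h1 : x ≠ 1) (h2 : x ^ mu a = 1) : ∃ g, g * x * g⁻¹ = x⁻¹ := by
  by_contra hn
  obtain ⟨P, k5⟩ := h.b5
  have k0 := Set.ncard_le_ncard (h.cover P)
  rw [prs_univ, h.ncard_inv] at k0
  have k1 := h.b1
  have k2 := h.b2
  have k3 := h.b3
  have k4 := h.b4
  have k6 := prs_le (S := {x : G | x ≠ 1 ∧ x ^ mu a = 1}) (c := mu a)
    (T := {y : G | y ≠ 1 ∧ y ^ mu a = 1} \ {x})
    (fun p hp => ⟨hp.2.2, fun e => hn ⟨p.1, (show p.1 * p.2 = x from e) ▸ inv_of_prs hp.1 hp.2.1⟩⟩)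
    fun y hy => Nat.le_of_dvd (mu_odd a).pos (h.cent_dvd' hy.1.1 hy.1.2)
  have k6' := Set.ncard_sdiff_singleton_add_one (s := {y : G | y ≠ 1 ∧ y ^ mu a = 1}) (a := x)
    ⟨h1, h2⟩
  have k7 := prs_le (S := {x : G | x ≠ 1 ∧ x ^ mu (-a) = 1}) (c := mu (-a)) (fun p hp => hp.2.2)
    fun y hy => Nat.le_of_dvd (mu_odd _).pos (h.neg.cent_dvd' hy.1 hy.2)
  have k8 := h.count
  have k9 := h.neg.count
  rw [← k6', mul_add, mul_one] at k8
  have u1 := Set.ncard_union_le (prs {(1 : G)}) (prs (cls {c.t}))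
  have u2 := Set.ncard_union_le (prs {(1 : G)} ∪ prs (cls {c.t}))
    (prs (cls {x | x ∈ c.D ∧ x * x ≠ 1}))
  have u3 := Set.ncard_union_le (prs {(1 : G)} ∪ prs (cls {c.t}) ∪
    prs (cls {x | x ∈ c.D ∧ x * x ≠ 1})) (prs (cls {x | x ∈ c.W ∧ x * x ≠ 1}))
  have u4 := Set.ncard_union_le (prs {(1 : G)} ∪ prs (cls {c.t}) ∪
    prs (cls {x | x ∈ c.D ∧ x * x ≠ 1}) ∪ prs (cls {x | x ∈ c.W ∧ x * x ≠ 1}))
    (prs (cls {x | x ∈ P ∧ x ≠ 1}))
  have u5 := Set.ncard_union_le (prs {(1 : G)} ∪ prs (cls {c.t}) ∪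
    prs (cls {x | x ∈ c.D ∧ x * x ≠ 1}) ∪ prs (cls {x | x ∈ c.W ∧ x * x ≠ 1}) ∪
    prs (cls {x | x ∈ P ∧ x ≠ 1})) (prs {x | x ≠ 1 ∧ x ^ mu a = 1})
  have u6 := Set.ncard_union_le (prs {(1 : G)} ∪ prs (cls {c.t}) ∪
    prs (cls {x | x ∈ c.D ∧ x * x ≠ 1}) ∪ prs (cls {x | x ∈ c.W ∧ x * x ≠ 1}) ∪
    prs (cls {x | x ∈ P ∧ x ≠ 1}) ∪ prs {x | x ≠ 1 ∧ x ^ mu a = 1})
    (prs {x | x ≠ 1 ∧ x ^ mu (-a) = 1})
  have hμ := (mu_odd a).pos
  have e : 6 * (q.natAbs ^ 2 * (mu a * mu (-a))) ^ 2 + 6 * Nat.card G + 4 * Nat.card G +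
      6 * ((q.natAbs ^ 3 + 1) * q.natAbs ^ 2) + 2 * Nat.card G =
      6 * (q.natAbs ^ 2 * (mu a * mu (-a))) +
      6 * (q.natAbs ^ 2 * (mu a * mu (-a)) * (2 * (q.natAbs * s.natAbs))) +
      3 * (Nat.card G * (2 * s.natAbs)) + Nat.card G * (4 * r.natAbs) +
      6 * ((q.natAbs ^ 3 + 1) * q.natAbs ^ 4) + Nat.card G * mu a + Nat.card G * mu (-a) := by
    have h3 : (mu a : ℤ) + mu (-a) = 2 - 2 * q := by rw [mu_cast, mu_cast, h.qa]; ring
    have h4 := h.mu_mul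
    rw [h.card_G]
    zify
    push_cast at h4
    rw [h4, show (mu (-a) : ℤ) = 2 - 2 * q - mu a by omega, ← Int.natCast_natAbs,
      ← Int.natCast_natAbs, ← Int.natCast_natAbs, h.castq, h.castr, h.casts, h.hq, h.hs]
    ring
  omega

end RH

universe u

theorem hyp_real {G : Type u} [Group G] [Finite G] {t : G} {L : Subgroup G} {q : ℕ}
    (h : Hyp t L q) (h5 : q ≠ 5) {x : G} (hk : (orderOf x).Prime) :
    orderOf x = 2 ∨ orderOf x ∣ Nat.card L ∨ ∃ g, g * x * g⁻¹ = x⁻¹ := by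
  have := Fintype.ofFinite G
  obtain ⟨q', r, s, p, c, h1, rfl, -, rfl⟩ := h.exists_gd
  have := h1.r_mod
  have := h1.hq
  have := h1.rne
  have h7 : 7 ≤ |r| := by rw [Int.abs_eq_natAbs]; omega
  obtain ⟨⟨n, -, h3⟩, h4⟩ := h1.big h7
  obtain rfl : 3 = p := h1.eq_p Nat.prime_three (by
    rw [h3, Int.natAbs_neg, Int.natAbs_pow]; exact dvd_pow_self 3 (by omega))
  have H : RH q' r s (3 ^ n) c := ⟨h1, by rw [h3]; ring, h4, h7⟩
  have x1 : x ≠ 1 := by rintro rfl; exact Nat.not_prime_one (orderOf_one (G := G) ▸ hk)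
  have h2 := orderOf_dvd_natCard x
  rw [H.card_G, hk.dvd_mul, hk.dvd_mul, hk.dvd_mul, hk.dvd_mul, hk.dvd_mul] at h2
  rw [h1.card]
  rcases h2 with (((e | e) | e) | e) | e | e
  · exact Or.inl ((Nat.prime_dvd_prime_iff_eq hk Nat.prime_two).1 (hk.dvd_of_dvd_pow (n := 3) e))
  · exact Or.inr (Or.inl ((((hk.dvd_of_dvd_pow e).mul_left _).mul_right _).mul_right _))
  · exact Or.inr (Or.inl ((e.mul_left _).mul_right _))
  · exact Or.inr (Or.inl (e.mul_left _))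
  · exact Or.inr (Or.inr (H.real x1 (orderOf_dvd_iff_pow_eq_one.1 e)))
  · exact Or.inr (Or.inr (H.neg.real x1 (orderOf_dvd_iff_pow_eq_one.1 e)))

end CfsgLib.JR.RR
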